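import Cfsg.Agent.Lib.LargeExtra.Basic
import Cfsg.Agent.Lib.Singular.Basic
import Cfsg.Agent.Lib.Components.Bender
import Cfsg.Agent.Lib.Components.Cores
import Cfsg.Agent.Lib.LocalP2.HSubgroup
import Cfsg.Agent.Lib.Hall.Basic

/-! # The structure of a group with a large extraspecial subgroup -/

set_option autoImplicit false

namespace Cfsg.Agent.Lib.LargeExtra.Structure

open Cfsg
open scoped commutatorElement

/-- No involution of a nonabelian simple group has a centralizer of order two. -/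
theorem not_selfCentralizing {L : Type*} [Group L] [Finite L] (hs : IsSimpleGroup L)
    (hna : ¬ IsMulCommutative L) {a : L} (ha : orderOf a = 2) (hC : ∀ c, c * a = a * c → c = 1 ∨ c = a) : False := by
  haveI : Fact (Nat.Prime 2) := ⟨Nat.prime_two⟩
  haveI := hs
  obtain ⟨P, hP⟩ := (IsPGroup.of_card (n := 1) (by rw [Nat.card_zpowers, ha, pow_one]) :
    IsPGroup 2 ↥(Subgroup.zpowers a)).exists_le_sylow
  have haP : a ∈ (P : Subgroup L) := hP (Subgroup.mem_zpowers a)
  haveI : Nontrivial (P : Subgroup L) := ⟨⟨⟨a, haP⟩, 1, fun e => by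
    have e' : a = 1 := congrArg Subtype.val e
    rw [e', orderOf_one] at ha
    omega⟩⟩
  haveI := P.isPGroup'.center_nontrivial
  obtain ⟨⟨⟨w, hw⟩, hwc⟩, hw1⟩ := exists_ne (1 : Subgroup.center (P : Subgroup L))
  rw [Subgroup.mem_center_iff] at hwc
  have hwa : w = a := (hC w (congrArg Subtype.val (hwc ⟨a, haP⟩)).symm).resolve_left fun e => hw1 (Subtype.ext (Subtype.ext e))
  have hP2 : ∀ c ∈ (P : Subgroup L), c = 1 ∨ c = a := fun c hc => hC c (by
    have : c * w = w * c := congrArg Subtype.val (hwc ⟨c, hc⟩)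
    rwa [hwa] at this)
  have hcard : Nat.card (P : Subgroup L) = 2 := by
    rw [Nat.card_eq_two_iff]
    refine ⟨1, ⟨a, haP⟩, fun e => ?_, Set.eq_univ_of_forall fun c => ?_⟩
    · have e' : (1 : L) = a := congrArg Subtype.val e
      rw [← e', orderOf_one] at ha
      omega
    · rcases hP2 c c.2 with e | e
      · exact Or.inl (Subtype.ext e)
      · exact Or.inr (Subtype.ext e)
  haveI : IsCyclic (P : Subgroup L) := isCyclic_of_prime_card hcard
  obtain ⟨P', N, hN, hc⟩ := LocalP2.hasNormalPComplement_of_cyclic_smallest P fun q hq _ => hq.two_le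
  have hcard' : Nat.card (P' : Subgroup L) = 2 := by
    rw [Sylow.card_eq_multiplicity, ← Sylow.card_eq_multiplicity P, hcard]
  have hm := hc.card_mul
  rcases hs.eq_bot_or_eq_top_of_normal N hN with e | e <;> rw [e] at hm
  · rw [Subgroup.card_bot, one_mul, hcard'] at hm
    haveI : IsCyclic L := isCyclic_of_prime_card (p := 2) hm.symm
    exact hna IsCyclic.isMulCommutative
  · rw [Subgroup.card_top, hcard'] at hm
    have h0 : 0 < Nat.card L := Nat.card_pos
    omega

variable {G : Type*} [Group G] [Finite G]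

/-- The data used throughout. -/
structure Setup (Q : Subgroup G) (z : G) : Prop where
  good : Singular.Good Q z
  pgroup : IsPGroup 2 ↥Q
  cq : ∀ c, (∀ q ∈ Q, c * q = q * c) → c = 1 ∨ c = z
  odd : ∀ K : Subgroup G, Odd (Nat.card K) → Q ≤ Subgroup.normalizer (K : Set G) → K = ⊥

variable {Q : Subgroup G} {z : G}

/-- A nontrivial subgroup normalized by `Q` contains `z`. -/
theorem Setup.mem_of_normalized (S : Setup Q z) {T : Subgroup G} (hT : T ≠ ⊥)
    (hQT : ∀ q ∈ Q, ∀ x ∈ T, q * x * q⁻¹ ∈ T) : z ∈ T := by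
  by_contra hzT
  have hdis : ∀ a ∈ T, a ∈ Q → a = 1 := by
    intro a haT haQ
    by_contra ha1
    by_cases hac : ∀ q ∈ Q, a * q = q * a
    · rcases S.cq a hac with e | e
      exacts [ha1 e, hzT (e ▸ haT)]
    · push Not at hac
      obtain ⟨q, hq, hqa⟩ := hac
      rcases S.good.comm a haQ q hq with e | e
      · exact hqa ((Singular.comm_iff _ _).1 e)
      · apply hzT
        rw [← e, show a * q * a⁻¹ * q⁻¹ = a * (q * a⁻¹ * q⁻¹) by group]
        exact mul_mem haT (hQT q hq _ (inv_mem haT))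
  have hfix : ∀ x ∈ T, z * x * z⁻¹ = x → x = 1 := by
    intro x hx hxz
    have hxz' : x * z = z * x := (mul_inv_eq_iff_eq_mul.1 hxz).symm
    have hcomm : ∀ q ∈ Q, x * q = q * x := by
      intro q hq
      apply (Singular.comm_iff _ _).1
      refine hdis _ ?_ (mul_mem (S.good.norm x hxz' q hq) (inv_mem hq))
      rw [show x * q * x⁻¹ * q⁻¹ = x * (q * x⁻¹ * q⁻¹) by group]
      exact mul_mem hx (hQT q hq _ (inv_mem hx))
    exact (S.cq x hcomm).resolve_right fun e => hzT (e ▸ hx)
  have hQN : Q ≤ Subgroup.normalizer (T : Set G) := fun q hq => Subgroup.mem_normalizer_iff.2 fun x =>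
    ⟨hQT q hq x, fun h => by simpa [mul_assoc] using hQT q⁻¹ (inv_mem hq) _ h⟩
  refine hT (S.odd T ?_ hQN)
  rw [← Nat.not_even_iff_odd]
  intro hev
  haveI : Fact (Nat.Prime 2) := ⟨Nat.prime_two⟩
  let Zg := Subgroup.zpowers z
  have hzN : Zg ≤ Subgroup.normalizer (T : Set G) := Subgroup.zpowers_le.2 (hQN S.good.mem)
  letI : MulAction ↥Zg ↥T :=
    { smul := fun u x => ⟨(u : G) * x * (u : G)⁻¹, (Subgroup.mem_normalizer_iff.1 (hzN u.2) x).1 x.2⟩
      one_smul := fun x => Subtype.ext (by show (1 : G) * x * (1 : G)⁻¹ = x; simp)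
      mul_smul := fun u v x => Subtype.ext (by
        show ((u : G) * v) * x * ((u : G) * v)⁻¹ = (u : G) * ((v : G) * x * (v : G)⁻¹) * (u : G)⁻¹
        group) }
  have hp : IsPGroup 2 ↥Zg := S.pgroup.to_le (Subgroup.zpowers_le.2 S.good.mem)
  obtain ⟨b, hb, hb1⟩ := hp.exists_fixed_point_of_prime_dvd_card_of_fixed_point (↥T) (even_iff_two_dvd.1 hev)
    (a := (1 : ↥T)) (fun u => Subtype.ext (show (u : G) * 1 * (u : G)⁻¹ = 1 by simp))
  exact hb1 (Subtype.ext (hfix b b.2 (congrArg Subtype.val (hb ⟨z, Subgroup.mem_zpowers z⟩)))).symm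

/-- The 2-core case. -/
theorem Setup.two_core (S : Setup Q z) (hO : Cfsg.pCore 2 G ≠ ⊥) :
    IsMulCommutative ↥(Subgroup.normalClosure ({z} : Set G)) ∧
      Cfsg.generalizedFittingSubgroup G = Cfsg.pCore 2 G := by
  haveI : Fact (Nat.Prime 2) := ⟨Nat.prime_two⟩
  haveI hPn : (Cfsg.pCore 2 G).Normal := Singular.core_normal 2
  set P := Cfsg.pCore 2 G with hP
  have hPp : IsPGroup 2 ↥P := Components.pCore_isPGroup 2
  have hzP : z ∈ P := S.mem_of_normalized hO fun q _ x hx => hPn.conj_mem x hx q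
  -- the centre of `P`
  let Zc := (Subgroup.center ↥P).map P.subtype
  haveI : Nontrivial ↥P := (Subgroup.nontrivial_iff_ne_bot P).2 hO
  haveI := hPp.center_nontrivial
  have hZcn : Zc.Normal := inferInstance
  have hZc1 : Zc ≠ ⊥ := by
    rw [Ne, Subgroup.map_eq_bot_iff_of_injective _ P.subtype_injective]
    exact (Subgroup.nontrivial_iff_ne_bot _).1 inferInstance
  have hzZ : z ∈ Zc := S.mem_of_normalized hZc1 fun q _ x hx => hZcn.conj_mem x hx q
  haveI := hZcn
  have hM : Subgroup.normalClosure ({z} : Set G) ≤ Zc :=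
    Subgroup.normalClosure_le_normal (Set.singleton_subset_iff.2 hzZ)
  have hO' : Cfsg.oddCore G = ⊥ := by
    haveI : (Cfsg.oddCore G).Normal := Hall.pPrimeCore_normal 2
    exact S.odd _ (Nat.coprime_two_right.1 (Hall.coprime_card_pPrimeCore 2)) fun q _ =>
      Subgroup.mem_normalizer_iff.2 fun x =>
        ⟨fun h => Subgroup.Normal.conj_mem inferInstance x h q,
          fun h => by simpa [mul_assoc] using Subgroup.Normal.conj_mem (inferInstance : (Cfsg.oddCore G).Normal) _ h q⁻¹⟩
  have hF : Cfsg.fittingSubgroup G = P := by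
    refine le_antisymm ?_ (Components.pCore_le_fittingSubgroup 2)
    have h := Components.fittingSubgroup_le_sup (G := G) 2
    rw [show Cfsg.pPrimeCore 2 G = ⊥ from hO', sup_bot_eq] at h
    exact h
  have hE : Cfsg.layer G = ⊥ := by
    rw [Components.layer_eq_bot_iff]
    intro L hL
    set E := Cfsg.layer G with hEd
    haveI hEn : E.Normal := inferInstance
    have hEz : ∀ e ∈ E, e * z = z * e := fun e he => by
      have := Components.layer_commute_fitting (G := G)
      rw [Subgroup.commutator_eq_bot_iff_le_centralizer] at this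
      exact ((Subgroup.mem_centralizer_iff.1 (this he)) z (hF ▸ hzP)).symm
    let D := E ⊓ Q
    have hDn : (D.subgroupOf E).Normal := ⟨fun x hx e => ⟨hEn.conj_mem _ hx.1 e,
      S.good.norm e (hEz e e.2) x hx.2⟩⟩
    have hDs : D.IsSubnormal := Subgroup.IsSubnormal.trans inf_le_left hDn.isSubnormal hEn.isSubnormal
    have hsolQ : Group.IsSolvable ↥Q := by
      haveI := S.pgroup.isNilpotent
      infer_instance
    have hDsol : Group.IsSolvable ↥D :=
      Group.isSolvable_of_isSolvable_injective (Subgroup.inclusion_injective (inf_le_right : D ≤ Q))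
    have h1 : ⁅Q, E⁆ ≤ D := by
      rw [Subgroup.commutator_le]
      intro q hq e he
      rw [commutatorElement_def]
      have h' : q * e * q⁻¹ * e⁻¹ ∈ E := mul_mem (hEn.conj_mem e he q) (inv_mem he)
      refine ⟨h', ?_⟩
      show q * e * q⁻¹ * e⁻¹ ∈ Q
      rw [show q * e * q⁻¹ * e⁻¹ = q * (e * q⁻¹ * e⁻¹) by group]
      exact mul_mem hq (S.good.norm e (hEz e he) _ (inv_mem hq))
    have h2 : ⁅⁅Q, E⁆, E⁆ = ⊥ := by
      rw [eq_bot_iff, ← Components.layer_commute_subnormal_solvable hDs hDsol, Subgroup.commutator_comm E D]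
      exact Subgroup.commutator_mono h1 le_rfl
    have h3 := Components.commutator_eq_bot_of_perfect (Components.layer_perfect (G := G)) h2
    have h4 : L ≤ Q := fun l hl => by
      rw [Subgroup.commutator_eq_bot_iff_le_centralizer] at h3
      have h5 := Subgroup.mem_centralizer_iff.1 (h3 (Components.comp_le_layer hL hl))
      rcases S.cq l fun q hq => (h5 q hq).symm with e | e <;> rw [e]
      exacts [one_mem _, S.good.mem]
    exact Components.comp_not_le_solvable hL hsolQ h4
  refine ⟨⟨⟨fun a b => Subtype.ext ?_⟩⟩, ?_⟩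
  · obtain ⟨a', ha', ea⟩ := hM a.2
    obtain ⟨b', hb', eb⟩ := hM b.2
    show (a : G) * b = b * a
    rw [← ea, ← eb]
    exact congrArg Subtype.val (Subgroup.mem_center_iff.1 hb' a')
  · rw [generalizedFittingSubgroup, hE, bot_sup_eq, hF]

/-- Without 2-core the Fitting subgroup is trivial. -/
theorem Setup.fitting_bot (S : Setup Q z) (hO : Cfsg.pCore 2 G = ⊥) : Cfsg.fittingSubgroup G = ⊥ := by
  haveI : Fact (Nat.Prime 2) := ⟨Nat.prime_two⟩
  have hO' : Cfsg.pPrimeCore 2 G = ⊥ := by
    haveI hn : (Cfsg.pPrimeCore 2 G).Normal := Hall.pPrimeCore_normal 2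
    exact S.odd _ (Nat.coprime_two_right.1 (Hall.coprime_card_pPrimeCore 2)) fun q _ =>
      Subgroup.mem_normalizer_iff.2 fun x =>
        ⟨fun h => hn.conj_mem x h q, fun h => by simpa [mul_assoc] using hn.conj_mem _ h q⁻¹⟩
  have h := Components.fittingSubgroup_le_sup (G := G) 2
  rwa [hO, hO', sup_bot_eq, le_bot_iff] at h

/-- Components are simple. -/
theorem comp_simple (hF : Cfsg.fittingSubgroup G = ⊥) {L : Subgroup G} (hL : Cfsg.IsComponent L) :
    IsSimpleGroup ↥L ∧ ¬ IsMulCommutative ↥L ∧ ∀ x ∈ L, (∀ y ∈ L, x * y = y * x) → x = 1 := by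
  have hc : Subgroup.center ↥L = ⊥ := by
    have hsn : ((Subgroup.center ↥L).map L.subtype).IsSubnormal :=
      Subgroup.IsSubnormal.trans' (Subgroup.Normal.isSubnormal inferInstance) hL.1
    have hnil : Group.IsNilpotent ↥((Subgroup.center ↥L).map L.subtype) :=
      (Group.isNilpotent_congr (Subgroup.equivMapOfInjective _ _ L.subtype_injective)).1 (by open scoped IsMulCommutative in infer_instance)
    have := Components.le_fittingSubgroup_of_subnormal hsn hnil
    rwa [hF, le_bot_iff, Subgroup.map_eq_bot_iff_of_injective _ L.subtype_injective] at this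
  haveI := hL.2.2
  haveI : Nontrivial ↥L := (Subgroup.nontrivial_iff_ne_bot L).2 (Components.comp_ne_bot hL)
  have hs : IsSimpleGroup ↥L := by
    refine ⟨fun N hN => ?_⟩
    rcases Components.qs_normal hL.2 hN with h | h
    · exact Or.inr h
    · exact Or.inl (le_bot_iff.1 (hc ▸ h))
  refine ⟨hs, fun hab => ?_, fun x hx h => ?_⟩
  · have : Subgroup.center ↥L = ⊤ := eq_top_iff.2 fun a _ => Subgroup.mem_center_iff.2 fun b => hab.is_comm.comm b a
    rw [hc] at this
    exact bot_ne_top this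
  · have : (⟨x, hx⟩ : ↥L) ∈ Subgroup.center ↥L := Subgroup.mem_center_iff.2 fun y => Subtype.ext (h y y.2).symm
    rw [hc, Subgroup.mem_bot] at this
    exact congrArg Subtype.val this

/-- The join of the components other than `L`. -/
def rest (L : Subgroup G) : Subgroup G := sSup {K | Cfsg.IsComponent K ∧ K ≠ L}

theorem comp_le_rest {K L : Subgroup G} (hK : Cfsg.IsComponent K) (h : K ≠ L) : K ≤ rest L :=
  le_sSup (show K ∈ {K : Subgroup G | Cfsg.IsComponent K ∧ K ≠ L} from ⟨hK, h⟩)

theorem commute_rest {L : Subgroup G} (hL : Cfsg.IsComponent L) {x y : G} (hx : x ∈ L) (hy : y ∈ rest L) :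
    x * y = y * x := by
  have h : ⁅rest L, L⁆ = ⊥ := Components.commutator_sSup_eq_bot fun K hK => Components.comp_commute hK.1 hL hK.2
  rw [Subgroup.commutator_eq_bot_iff_le_centralizer] at h
  exact Subgroup.mem_centralizer_iff.1 (h hy) x hx

theorem inter_rest (hF : Cfsg.fittingSubgroup G = ⊥) {L : Subgroup G} (hL : Cfsg.IsComponent L) {x : G}
    (hx : x ∈ L) (hx' : x ∈ rest L) : x = 1 :=
  (comp_simple hF hL).2.2 x hx fun _ hy => (commute_rest hL hy hx').symm

theorem split {L : Subgroup G} (hL : Cfsg.IsComponent L) {e : G} (he : e ∈ Cfsg.layer G) :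
    ∃ a ∈ L, ∃ r ∈ rest L, e = a * r := by
  have hle : Cfsg.layer G ≤ L ⊔ rest L := Components.layer_le_iff.2 fun K hK => by
    by_cases h : K = L
    · exact h ▸ le_sup_left
    · exact (comp_le_rest hK h).trans le_sup_right
  have hn : L ≤ Subgroup.normalizer (rest L : Set G) := fun a ha => by
    rw [Subgroup.mem_normalizer_iff]
    have key : ∀ b ∈ L, ∀ x ∈ rest L, b * x * b⁻¹ = x := fun b hb x hx =>
      mul_inv_eq_iff_eq_mul.2 (commute_rest hL hb hx)
    refine fun x => ⟨fun h => by rw [key a ha x h]; exact h, fun h => ?_⟩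
    have h' := key a⁻¹ (inv_mem ha) _ h
    rw [show a⁻¹ * (a * x * a⁻¹) * a⁻¹⁻¹ = x by group] at h'
    exact h' ▸ h
  have hmem : e ∈ (↑(L ⊔ rest L) : Set G) := hle he
  rw [Subgroup.coe_mul_of_left_le_normalizer_right _ _ hn, Set.mem_mul] at hmem
  obtain ⟨a, ha, r, hr, rfl⟩ := hmem
  exact ⟨a, ha, r, hr, rfl⟩

theorem split_unique (hF : Cfsg.fittingSubgroup G = ⊥) {L : Subgroup G} (hL : Cfsg.IsComponent L) {a a' r r' : G}
    (ha : a ∈ L) (hr : r ∈ rest L) (ha' : a' ∈ L) (hr' : r' ∈ rest L) (h : a * r = a' * r') : a = a' ∧ r = r' := by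
  have h1 : a'⁻¹ * a = r' * r⁻¹ := by
    calc a'⁻¹ * a = a'⁻¹ * (a * r) * r⁻¹ := by group
      _ = _ := by rw [h]; group
  have h2 := inter_rest hF hL (mul_mem (inv_mem ha') ha) (h1 ▸ mul_mem hr' (inv_mem hr))
  have h3 : a = a' := (eq_of_inv_mul_eq_one h2).symm
  exact ⟨h3, mul_left_cancel (h3 ▸ h)⟩

theorem conj_comp {L : Subgroup G} (hL : Cfsg.IsComponent L) (g : G) :
    Cfsg.IsComponent (L.map (MulAut.conj g).toMonoidHom) :=
  Components.isComponent_map_equiv hL (MulAut.conj g)

theorem mem_map_conj {L : Subgroup G} {g x : G} : x ∈ L.map (MulAut.conj g).toMonoidHom ↔ g⁻¹ * x * g ∈ L := by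
  refine ⟨?_, fun h => ⟨_, h, by simp [mul_assoc]⟩⟩
  rintro ⟨y, hy, rfl⟩
  simpa [mul_assoc] using hy

end Cfsg.Agent.Lib.LargeExtra.Structure
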