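import Mathlib
import Cfsg.Prelude.Def_MonsterType
import Cfsg.Agent.Lib.PGroupFrattini
import Cfsg.Agent.Lib.Components.Cores
import Cfsg.Agent.Lib.LargeExtra.Basic

/-! # The large extraspecial subgroup of an affine general linear group over two elements -/

set_option autoImplicit false

namespace Cfsg.Agent.Lib.LargeExtra.Affine

open Cfsg

local notation "F₂" => ZMod 2

/-- Lines and transvection translations. -/
abbrev V (n : ℕ) := Fin n → F₂

/-- The translation module with distinguished vector `(1, 0)`. -/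
abbrev P (n : ℕ) := F₂ × V n

theorem two_cases (a : F₂) : a = 0 ∨ a = 1 := by revert a; decide

theorem add_self {W : Type*} [AddCommGroup W] [Module F₂ W] (v : W) : v + v = 0 := by
  rw [← two_smul F₂ v, show (2 : F₂) = 0 from rfl, zero_smul]

theorem exists_dual {n : ℕ} {v w : V n} (hv : v ≠ 0) (hw : w ≠ 0) : ∃ φ : V n →ₗ[F₂] F₂, φ v = 1 ∧ φ w = 1 := by
  obtain ⟨i, hi⟩ := Function.ne_iff.1 hv
  obtain ⟨j, hj⟩ := Function.ne_iff.1 hw
  have hi : v i = 1 := (two_cases _).resolve_left hi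
  have hj : w j = 1 := (two_cases _).resolve_left hj
  rcases two_cases (w i) with h | h
  · rcases two_cases (v j) with h' | h'
    · exact ⟨(LinearMap.proj i : V n →ₗ[F₂] F₂) + LinearMap.proj j, by simp [hi, h'], by simp [hj, h]⟩
    · exact ⟨LinearMap.proj j, by simp [h'], by simp [hj]⟩
  · exact ⟨LinearMap.proj i, by simp [hi], by simp [h]⟩

theorem transitive_pi {n : ℕ} {v w : V n} (hv : v ≠ 0) (hw : w ≠ 0) : ∃ g : V n ≃ₗ[F₂] V n, g v = w := by
  obtain ⟨φ, h1, h2⟩ := exists_dual hv hw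
  let f : V n →ₗ[F₂] V n := LinearMap.id + φ.smulRight (v + w)
  have hf : ∀ x, f (f x) = x := by
    intro x
    have e : φ (v + w) = 0 := by rw [map_add, h1, h2]; rfl
    have hfx : ∀ y, f y = y + φ y • (v + w) := fun y => rfl
    rw [hfx (f x), hfx x, map_add φ x, map_smul, e, smul_zero, add_zero, add_assoc, add_self, add_zero]
  refine ⟨LinearEquiv.ofInvolutive f hf, ?_⟩
  show f v = w
  simp only [f, LinearMap.add_apply, LinearMap.id_coe, id_eq, LinearMap.smulRight_apply, h1, one_smul]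
  rw [← add_assoc, add_self, zero_add]

theorem transitive {n : ℕ} {W : Type*} [AddCommGroup W] [Module F₂ W] (e : W ≃ₗ[F₂] V n) {v w : W}
    (hv : v ≠ 0) (hw : w ≠ 0) : ∃ g : W ≃ₗ[F₂] W, g v = w := by
  obtain ⟨g, hg⟩ := transitive_pi (v := e v) (w := e w) (by simpa using hv) (by simpa using hw)
  exact ⟨(e.trans g).trans e.symm, by simp [hg]⟩

/-- Coordinates on the pair module. -/
noncomputable def pairCoord (n : ℕ) : P n ≃ₗ[F₂] V (n + 1) := Fin.consLinearEquiv F₂ fun _ : Fin (n + 1) => F₂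

/-- The translations `(a, v) ↦ (a + φ v, v)`. -/
def tau {n : ℕ} (φ : V n →ₗ[F₂] F₂) : P n ≃ₗ[F₂] P n :=
  LinearEquiv.ofInvolutive
    { toFun := fun x => (x.1 + φ x.2, x.2)
      map_add' := fun x y => by ext <;> simp [add_add_add_comm]
      map_smul' := fun c x => by ext <;> simp [mul_add] }
    (fun x => by
      ext
      · show x.1 + φ x.2 + φ x.2 = x.1
        rw [add_assoc, add_self, add_zero]
      · rfl)

@[simp] theorem tau_apply {n : ℕ} (φ : V n →ₗ[F₂] F₂) (x : P n) : tau φ x = (x.1 + φ x.2, x.2) := rfl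

theorem tau_add {n : ℕ} (φ ψ : V n →ₗ[F₂] F₂) : tau φ * tau ψ = tau (φ + ψ) := by
  refine LinearEquiv.ext fun x => ?_
  show tau φ (tau ψ x) = tau (φ + ψ) x
  simp only [tau_apply, LinearMap.add_apply]
  rw [add_assoc, add_comm (ψ x.2) (φ x.2)]

theorem tau_zero {n : ℕ} : tau (0 : V n →ₗ[F₂] F₂) = 1 := LinearEquiv.ext fun x => by simp

theorem tau_inv {n : ℕ} (φ : V n →ₗ[F₂] F₂) : (tau φ)⁻¹ = tau φ :=
  inv_eq_of_mul_eq_one_right (by rw [tau_add, add_self, tau_zero])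

/-- The linear part. -/
def sigma (n : ℕ) : (V n ≃ₗ[F₂] V n) →* (P n ≃ₗ[F₂] P n) where
  toFun g := (LinearEquiv.refl F₂ F₂).prodCongr g
  map_one' := LinearEquiv.ext fun _ => rfl
  map_mul' _ _ := LinearEquiv.ext fun _ => rfl

theorem sigma_tau {n : ℕ} (g : V n ≃ₗ[F₂] V n) (φ : V n →ₗ[F₂] F₂) :
    sigma n g * tau φ * (sigma n g)⁻¹ = tau (φ.comp g.symm.toLinearMap) := by
  refine LinearEquiv.ext fun x => ?_
  show sigma n g (tau φ ((sigma n g).symm x)) = _
  ext <;> simp [sigma]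

/-- An automorphism fixing the distinguished vector decomposes. -/
theorem decompose {n : ℕ} (f : P n ≃ₗ[F₂] P n) (hf : f (1, 0) = (1, 0)) :
    ∃ (φ : V n →ₗ[F₂] F₂) (g : V n ≃ₗ[F₂] V n), f = tau φ * sigma n g := by
  let h : V n →ₗ[F₂] V n := (LinearMap.snd F₂ F₂ (V n)).comp (f.toLinearMap.comp (LinearMap.inr F₂ F₂ (V n)))
  have hsplit : ∀ x : P n, f x = x.1 • ((1, 0) : P n) + f (0, x.2) := by
    intro x
    conv_lhs => rw [show x = x.1 • ((1, 0) : P n) + (0, x.2) by ext <;> simp]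
    rw [map_add, map_smul, hf]
  have hinj : Function.Injective h := by
    refine (injective_iff_map_eq_zero h).2 fun v hv => ?_
    have h0 : (f (0, v)).2 = 0 := hv
    have : f (0, v) = f ((f (0, v)).1, 0) := by
      rw [hsplit ((f (0, v)).1, 0)]
      ext <;> simp [h0, show f (0, (0 : V n)) = 0 from map_zero f]
    exact (congrArg Prod.snd (f.injective this)).trans rfl
  let g : V n ≃ₗ[F₂] V n := LinearEquiv.ofInjectiveEndo h hinj
  let φ : V n →ₗ[F₂] F₂ := ((LinearMap.fst F₂ F₂ (V n)).comp (f.toLinearMap.comp (LinearMap.inr F₂ F₂ (V n)))).comp g.symm.toLinearMap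
  refine ⟨φ, g, LinearEquiv.ext fun x => ?_⟩
  show f x = tau φ (sigma n g x)
  have hφ : φ (g x.2) = (f (0, x.2)).1 := by simp [φ]
  rw [hsplit]
  ext
  · simp [sigma, hφ]
  · simp [sigma]; rfl

/-- A normal 2-group of automorphisms of a vector space over two elements is trivial. -/
theorem normal_two_group_trivial {n : ℕ} (N : Subgroup (V n ≃ₗ[F₂] V n)) (hN : N.Normal) (hp : IsPGroup 2 ↥N) :
    N = ⊥ := by
  classical
  rw [Subgroup.eq_bot_iff_forall]
  intro f hf
  rcases Nat.eq_zero_or_pos n with rfl | hn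
  · exact LinearEquiv.ext fun x => Subsingleton.elim _ _
  haveI : Fact (Nat.Prime 2) := ⟨Nat.prime_two⟩
  let act : MulAction ↥N (V n) :=
    { smul := fun g x => (g : V n ≃ₗ[F₂] V n) x
      one_smul := fun _ => rfl
      mul_smul := fun _ _ _ => rfl }
  letI := act
  have hdvd : 2 ∣ Nat.card (V n) := by
    rw [Nat.card_fun, Nat.card_fin, Nat.card_eq_fintype_card, ZMod.card]
    exact dvd_pow_self 2 hn.ne'
  obtain ⟨b, hb, hb0⟩ := hp.exists_fixed_point_of_prime_dvd_card_of_fixed_point (V n) hdvd (a := 0)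
    (fun g => map_zero (g : V n ≃ₗ[F₂] V n))
  refine LinearEquiv.ext fun x => ?_
  show f x = x
  by_cases hx : x = 0
  · rw [hx, map_zero]
  obtain ⟨g, hg⟩ := transitive_pi (Ne.symm hb0) hx
  have := hb ⟨g⁻¹ * f * g⁻¹⁻¹, hN.conj_mem f hf g⁻¹⟩
  have h1 : g.symm (f (g b)) = b := this
  rw [hg] at h1
  rw [← g.apply_symm_apply (f x), h1, hg]

/-- General linear group in matrix form. -/
noncomputable def glEquiv (n : ℕ) : (V n ≃ₗ[F₂] V n) ≃* Matrix.GeneralLinearGroup (Fin n) F₂ :=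
  (Matrix.GeneralLinearGroup.toLin.trans (LinearMap.GeneralLinearGroup.generalLinearEquiv F₂ (V n))).symm

variable {G : Type*} [Group G]

/-- Coordinates on the normal subgroup. -/
theorem exists_coord [Finite G] {n : ℕ} {U : Subgroup G} (hU : Cfsg.IsElementaryAbelian 2 U)
    (hcard : Nat.card ↥U = 2 ^ (n + 1)) {z : G} (hz : z ∈ U) (hz1 : z ≠ 1) :
    ∃ e : ↥U ≃* Multiplicative (P n), e ⟨z, hz⟩ = Multiplicative.ofAdd ((1, 0) : P n) := by
  haveI := hU.1
  open scoped IsMulCommutative in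
  letI : Module F₂ (Additive ↥U) := AddCommGroup.zmodModule fun v =>
    congrArg Additive.ofMul (Subtype.ext (hU.2 _ v.toMul.2) : (v.toMul : ↥U) ^ 2 = 1)
  open scoped IsMulCommutative in
  haveI : Module.Finite F₂ (Additive ↥U) := Module.Finite.of_finite
  open scoped IsMulCommutative in
  have hfr : Module.finrank F₂ (Additive ↥U) = n + 1 := by
    have h := Module.natCard_eq_pow_finrank (K := F₂) (V := Additive ↥U)
    rw [Nat.card_eq_fintype_card (α := F₂), ZMod.card, show Nat.card (Additive ↥U) = Nat.card ↥U from Nat.card_congr Additive.toMul, hcard] at h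
    exact (Nat.pow_right_injective le_rfl h).symm
  open scoped IsMulCommutative in
  have e0 : Additive ↥U ≃ₗ[F₂] P n :=
    (LinearEquiv.ofFinrankEq (Additive ↥U) (P n) (by rw [hfr]; simp [P, V]; omega))
  open scoped IsMulCommutative in
  obtain ⟨g, hg⟩ := transitive (pairCoord n) (v := e0 (Additive.ofMul ⟨z, hz⟩)) (w := ((1, 0) : P n))
    (by
      intro h
      have h1 := e0.map_eq_zero_iff.1 h
      exact hz1 (congrArg Subtype.val (congrArg Additive.toMul h1)))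
    (by simp)
  open scoped IsMulCommutative in
  exact ⟨AddEquiv.toMultiplicativeRight (e0.trans g).toAddEquiv, congrArg Multiplicative.ofAdd hg⟩

/-- The hypotheses: a complement inducing all automorphisms faithfully. -/
structure Data (G : Type*) [Group G] (n : ℕ) where
  /-- the translations -/
  T : Multiplicative (P n) →* G
  /-- the automorphisms -/
  ι : (P n ≃ₗ[F₂] P n) →* G
  T_inj : Function.Injective T
  ι_inj : Function.Injective ι
  conj : ∀ f x, ι f * T (Multiplicative.ofAdd x) * (ι f)⁻¹ = T (Multiplicative.ofAdd (f x))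
  gen : ∀ g : G, g * T (Multiplicative.ofAdd ((1, 0) : P n)) = T (Multiplicative.ofAdd ((1, 0) : P n)) * g → ∃ x f, g = T (Multiplicative.ofAdd x) * ι f
  disj : ∀ x f, T (Multiplicative.ofAdd x) = ι f → x = 0

namespace Data

variable {n : ℕ} (D : Data G n)

/-- Translations. -/
abbrev t (x : P n) : G := D.T (Multiplicative.ofAdd x)

theorem conj_t (f : P n ≃ₗ[F₂] P n) (x : P n) : D.ι f * D.t x * (D.ι f)⁻¹ = D.t (f x) := D.conj f x

theorem t_add (x y : P n) : D.t (x + y) = D.t x * D.t y := by simp [t, ofAdd_add]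

theorem t_zero : D.t 0 = 1 := by simp [t]

theorem t_inv (x : P n) : (D.t x)⁻¹ = D.t x :=
  inv_eq_of_mul_eq_one_right (by rw [← t_add, add_self, t_zero])

theorem t_inj {x y : P n} (h : D.t x = D.t y) : x = y := Multiplicative.ofAdd.injective (D.T_inj h)

theorem unique {x y : P n} {f g : P n ≃ₗ[F₂] P n} (h : D.t x * D.ι f = D.t y * D.ι g) : x = y ∧ f = g := by
  have h1 : D.t (y + x) = D.ι (g * f⁻¹)⁻¹⁻¹ := by
    rw [inv_inv, map_mul, map_inv, t_add, ← D.t_inv y]
    calc (D.t y)⁻¹ * D.t x = (D.t y)⁻¹ * (D.t x * D.ι f) * (D.ι f)⁻¹ := by group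
      _ = _ := by rw [h]; group
  have h2 := D.disj _ _ h1
  have hxy : x = y := by
    calc x = (y + y) + x := by rw [add_self, zero_add]
      _ = y := by rw [add_assoc, h2, add_zero]
  subst hxy
  exact ⟨rfl, D.ι_inj (mul_left_cancel h)⟩

theorem swap (f : P n ≃ₗ[F₂] P n) (x : P n) : D.ι f * D.t x = D.t (f x) * D.ι f :=
  mul_inv_eq_iff_eq_mul.1 (D.conj f x)

theorem mul_eq (x y : P n) (f g : P n ≃ₗ[F₂] P n) :
    (D.t x * D.ι f) * (D.t y * D.ι g) = D.t (x + f y) * D.ι (f * g) := by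
  rw [t_add, map_mul, mul_assoc, ← mul_assoc (D.ι f), D.swap]
  simp only [mul_assoc]

/-- The distinguished involution. -/
abbrev z : G := D.t (1, 0)

theorem commute_z {x : P n} {f : P n ≃ₗ[F₂] P n} :
    D.t x * D.ι f * D.z = D.z * (D.t x * D.ι f) ↔ f (1, 0) = (1, 0) := by
  have h1 : D.t x * D.ι f * D.z = D.t (x + f (1, 0)) * D.ι f := by rw [mul_assoc, D.swap, ← mul_assoc, ← t_add]
  have h2 : D.z * (D.t x * D.ι f) = D.t ((1, 0) + x) * D.ι f := by rw [← mul_assoc, ← t_add]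
  rw [h1, h2]
  constructor
  · intro h
    have := (D.unique h).1
    rw [add_comm ((1, 0) : P n) x] at this
    exact add_left_cancel this
  · intro h; rw [h, add_comm]

/-- The candidate for the largest normal 2-subgroup of the centralizer. -/
def Q : Subgroup G where
  carrier := {g | ∃ x φ, g = D.t x * D.ι (tau φ)}
  one_mem' := ⟨0, 0, by rw [t_zero, tau_zero, map_one, one_mul]⟩
  mul_mem' := by
    rintro _ _ ⟨x, φ, rfl⟩ ⟨y, ψ, rfl⟩
    exact ⟨x + tau φ y, φ + ψ, by rw [D.mul_eq, tau_add]⟩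
  inv_mem' := by
    rintro _ ⟨x, φ, rfl⟩
    refine ⟨tau φ x, φ, ?_⟩
    rw [mul_inv_rev, t_inv, ← map_inv, tau_inv, D.swap]

theorem mem_Q {x : P n} {f : P n ≃ₗ[F₂] P n} : D.t x * D.ι f ∈ D.Q ↔ ∃ φ, f = tau φ := by
  constructor
  · rintro ⟨y, φ, h⟩; exact ⟨φ, (D.unique h).2⟩
  · rintro ⟨φ, rfl⟩; exact ⟨x, φ, rfl⟩

theorem t_mem_Q (x : P n) : D.t x ∈ D.Q := ⟨x, 0, by rw [tau_zero, map_one, mul_one]⟩

theorem tau_mem_Q (φ : V n →ₗ[F₂] F₂) : D.ι (tau φ) ∈ D.Q := ⟨0, φ, by rw [t_zero, one_mul]⟩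

theorem Q_le : D.Q ≤ Subgroup.centralizer ({D.z} : Set G) := by
  rintro _ ⟨x, φ, rfl⟩
  rw [Subgroup.mem_centralizer_singleton_iff]
  exact D.commute_z.2 (by simp)

theorem Q_comm {a b : G} (ha : a ∈ D.Q) (hb : b ∈ D.Q) : a * b * a⁻¹ * b⁻¹ = 1 ∨ a * b * a⁻¹ * b⁻¹ = D.z := by
  obtain ⟨x, φ, rfl⟩ := ha
  obtain ⟨y, ψ, rfl⟩ := hb
  have h : D.t x * D.ι (tau φ) * (D.t y * D.ι (tau ψ)) =
      D.t ((φ y.2 + ψ x.2, 0) : P n) * (D.t y * D.ι (tau ψ) * (D.t x * D.ι (tau φ))) := by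
    rw [D.mul_eq, D.mul_eq, ← mul_assoc, ← t_add, tau_add, tau_add, add_comm ψ φ]
    congr 2
    ext
    · simp only [tau_apply, Prod.fst_add]
      have := add_self (ψ x.2)
      linear_combination (-1 : F₂) * this
    · simp [add_comm]
  rw [h, show ∀ a b c : G, a * (b * c) * c⁻¹ * b⁻¹ = a from fun a b c => by group]
  rcases two_cases (φ y.2 + ψ x.2) with e | e <;> rw [e]
  · left; exact D.t_zero
  · right; rfl

theorem Q_sqr {a : G} (ha : a ∈ D.Q) : a * a = 1 ∨ a * a = D.z := by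
  obtain ⟨x, φ, rfl⟩ := ha
  have h : D.t x * D.ι (tau φ) * (D.t x * D.ι (tau φ)) = D.t ((φ x.2, 0) : P n) := by
    rw [D.mul_eq, tau_add, add_self, tau_zero, map_one, mul_one]
    congr 1
    ext
    · show x.1 + (x.1 + φ x.2) = φ x.2
      rw [← add_assoc, add_self, zero_add]
    · show (x.2 + x.2) _ = _
      rw [add_self]
  rw [h]
  rcases two_cases (φ x.2) with e | e <;> rw [e]
  · left; exact D.t_zero
  · right; rfl

theorem Q_center {a : G} (ha : a ∈ D.Q) (h : ∀ b ∈ D.Q, a * b = b * a) : a = 1 ∨ a = D.z := by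
  obtain ⟨x, φ, rfl⟩ := ha
  have hφ : φ = 0 := by
    refine LinearMap.ext fun v => ?_
    have h1 := h _ (D.t_mem_Q (0, v))
    rw [mul_assoc, D.swap, ← mul_assoc, ← mul_assoc, ← t_add, ← t_add] at h1
    have h2 := congrArg Prod.fst (D.t_inj (mul_right_cancel h1))
    simpa using h2
  subst hφ
  rw [tau_zero, map_one, mul_one] at h ⊢
  have hx : x.2 = 0 := by
    funext i
    have h1 := h _ (D.tau_mem_Q (LinearMap.proj i))
    rw [D.swap] at h1
    have h2 := congrArg Prod.fst (D.t_inj (mul_right_cancel h1))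
    simpa using h2
  rcases two_cases x.1 with e | e
  · left; rw [show x = 0 from Prod.ext e hx]; exact D.t_zero
  · right; rw [show x = (1, 0) from Prod.ext e hx]

theorem z_mem : D.z ∈ D.Q := D.t_mem_Q _

theorem z_ne : D.z ≠ 1 := fun e => by
  have := congrArg Prod.fst (D.t_inj (e.trans D.t_zero.symm))
  simp at this

theorem card_Q : Nat.card ↥D.Q = 2 ^ (2 * n + 1) := by
  let f : P n × (V n →ₗ[F₂] F₂) → ↥D.Q := fun p => ⟨D.t p.1 * D.ι (tau p.2), p.1, p.2, rfl⟩
  have hf : Function.Bijective f := by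
    constructor
    · intro p q h
      obtain ⟨h1, h2⟩ := D.unique (congrArg Subtype.val h)
      refine Prod.ext h1 (LinearMap.ext fun v => ?_)
      have := congrArg Prod.fst (LinearEquiv.congr_fun h2 (0, v))
      simpa using this
    · rintro ⟨_, x, φ, rfl⟩; exact ⟨(x, φ), rfl⟩
  rw [← Nat.card_eq_of_bijective f hf, Nat.card_prod, Nat.card_prod,
    Nat.card_congr (LinearEquiv.piRing F₂ F₂ (Fin n) F₂).toEquiv, Nat.card_fun, Nat.card_fin,
    Nat.card_eq_fintype_card, ZMod.card]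
  ring

theorem extraspecial (hn : 1 ≤ n) : Cfsg.IsExtraspecial 2 ↥D.Q := by
  haveI : Fact (Nat.Prime 2) := ⟨Nat.prime_two⟩
  haveI : Finite ↥D.Q := Nat.finite_of_card_ne_zero (by rw [D.card_Q]; positivity)
  have hp : IsPGroup 2 ↥D.Q := IsPGroup.of_card D.card_Q
  have hcen : ∀ a : ↥D.Q, a ∈ Subgroup.center ↥D.Q ↔ (a : G) = 1 ∨ (a : G) = D.z := by
    intro a
    rw [Subgroup.mem_center_iff]
    refine ⟨fun h => D.Q_center a.2 fun b hb => (congrArg Subtype.val (h ⟨b, hb⟩)).symm, fun h b => Subtype.ext ?_⟩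
    rcases h with h | h <;> simp only [Subgroup.coe_mul, h]
    · simp
    · exact Subgroup.mem_centralizer_singleton_iff.1 (D.Q_le b.2)
  have hz : (⟨D.z, D.z_mem⟩ : ↥D.Q) ∈ commutator ↥D.Q := by
    let i : Fin n := ⟨0, hn⟩
    have h : (⟨D.z, D.z_mem⟩ : ↥D.Q) = ⟨_, D.tau_mem_Q (LinearMap.proj i)⟩ * ⟨_, D.t_mem_Q (0, Pi.single i 1)⟩ *
        (⟨_, D.tau_mem_Q (LinearMap.proj i)⟩ : ↥D.Q)⁻¹ * (⟨_, D.t_mem_Q (0, Pi.single i 1)⟩ : ↥D.Q)⁻¹ := by
      apply Subtype.ext
      show D.z = D.ι (tau (LinearMap.proj i)) * D.t (0, Pi.single i 1) * (D.ι (tau (LinearMap.proj i)))⁻¹ * (D.t (0, Pi.single i 1))⁻¹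
      rw [D.conj_t, t_inv, ← t_add]
      congr 1
      refine congrArg _ (Prod.ext ?_ ?_)
      · simp
      · simp [add_self]
    rw [h, ← commutatorElement_def, commutator_def]
    exact Subgroup.commutator_mem_commutator (Subgroup.mem_top _) (Subgroup.mem_top _)
  have hle : Subgroup.center ↥D.Q ≤ commutator ↥D.Q := by
    intro a ha
    rcases (hcen a).1 ha with h | h
    · rw [show a = 1 from Subtype.ext h]; exact one_mem _
    · rw [show a = ⟨D.z, D.z_mem⟩ from Subtype.ext h]; exact hz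
  have hge : commutator ↥D.Q ≤ Subgroup.center ↥D.Q := by
    rw [commutator_def, Subgroup.commutator_le]
    intro a _ b _
    rw [hcen]
    simpa [commutatorElement_def] using D.Q_comm a.2 b.2
  refine ⟨⟨hp, ?_, le_antisymm hge hle⟩, ?_⟩
  · refine le_antisymm (PGroupFrattini.frattini_le Nat.prime_two _ hge fun a => ?_) (hle.trans (PGroupFrattini.commutator_le_frattini hp))
    rw [hcen, pow_two, Subgroup.coe_mul]
    exact D.Q_sqr a.2
  · rw [Nat.card_eq_two_iff]
    refine ⟨1, ⟨⟨D.z, D.z_mem⟩, (hcen _).2 (Or.inr rfl)⟩, fun e => D.z_ne (congrArg (fun a : Subgroup.center ↥D.Q => ((a : ↥D.Q) : G)) e).symm, ?_⟩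
    refine Set.eq_univ_of_forall fun a => ?_
    rcases (hcen _).1 a.2 with h | h
    · exact Or.inl (Subtype.ext (Subtype.ext h))
    · exact Or.inr (Subtype.ext (Subtype.ext h))

/-- The complement in the centralizer. -/
def K : Subgroup G := (D.ι.comp (sigma n)).range

theorem K_le : D.K ≤ Subgroup.centralizer ({D.z} : Set G) := by
  rintro _ ⟨g, rfl⟩
  rw [Subgroup.mem_centralizer_singleton_iff]
  show D.ι (sigma n g) * D.z = D.z * D.ι (sigma n g)
  rw [D.swap, show sigma n g (1, 0) = (1, 0) by ext <;> simp [sigma]]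

theorem centralizer_eq {c : G} (hc : c ∈ Subgroup.centralizer ({D.z} : Set G)) : ∃ q ∈ D.Q, ∃ k ∈ D.K, c = q * k := by
  obtain ⟨x, f, rfl⟩ := D.gen c (Subgroup.mem_centralizer_singleton_iff.1 hc)
  obtain ⟨φ, g, rfl⟩ := decompose f (D.commute_z.1 (Subgroup.mem_centralizer_singleton_iff.1 hc))
  exact ⟨D.t x * D.ι (tau φ), ⟨x, φ, rfl⟩, D.ι (sigma n g), ⟨g, rfl⟩, by rw [map_mul, mul_assoc]⟩

theorem sup_eq : D.Q ⊔ D.K = Subgroup.centralizer ({D.z} : Set G) :=
  le_antisymm (sup_le D.Q_le D.K_le) fun _ hc => by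
    obtain ⟨q, hq, k, hk, rfl⟩ := D.centralizer_eq hc
    exact Subgroup.mul_mem_sup hq hk

theorem sigma_inj : Function.Injective (sigma n) := fun g h e => LinearEquiv.ext fun v => by
  have := congrArg Prod.snd (LinearEquiv.congr_fun e (0, v))
  simpa [sigma] using this

theorem disjoint : D.Q ⊓ D.K = ⊥ := by
  rw [Subgroup.eq_bot_iff_forall]
  rintro _ ⟨hq, g, rfl⟩
  obtain ⟨φ, hφ⟩ := (D.mem_Q (x := 0)).1 (by rw [t_zero, one_mul]; exact hq)
  have : g = 1 := LinearEquiv.ext fun v => by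
    have := congrArg Prod.snd (LinearEquiv.congr_fun hφ (0, v))
    simpa [sigma] using this
  rw [this, map_one]

theorem K_iso : Nonempty (↥D.K ≃* Matrix.GeneralLinearGroup (Fin n) F₂) :=
  ⟨(MonoidHom.ofInjective (f := D.ι.comp (sigma n)) (D.ι_inj.comp sigma_inj)).symm.trans (glEquiv n)⟩

theorem Q_normal {c : G} (hc : c ∈ Subgroup.centralizer ({D.z} : Set G)) {q : G} (hq : q ∈ D.Q) : c * q * c⁻¹ ∈ D.Q := by
  obtain ⟨a, ha, _, ⟨g, rfl⟩, rfl⟩ := D.centralizer_eq hc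
  obtain ⟨x, φ, rfl⟩ := hq
  have h : (D.ι.comp (sigma n)) g * (D.t x * D.ι (tau φ)) * ((D.ι.comp (sigma n)) g)⁻¹ ∈ D.Q := by
    refine ⟨sigma n g x, φ.comp g.symm.toLinearMap, ?_⟩
    rw [← sigma_tau, map_mul, map_mul, map_inv, ← D.conj_t]
    simp only [MonoidHom.comp_apply]; group
  have := mul_mem (mul_mem ha h) (inv_mem ha)
  simpa [mul_assoc] using this

theorem pCore_eq [Finite G] : (Cfsg.pCore 2 ↥(Subgroup.centralizer ({D.z} : Set G))).map
    (Subgroup.centralizer ({D.z} : Set G)).subtype = D.Q := by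
  haveI : Fact (Nat.Prime 2) := ⟨Nat.prime_two⟩
  set C := Subgroup.centralizer ({D.z} : Set G)
  apply le_antisymm
  · rintro _ ⟨c, hc, rfl⟩
    -- the projection to the linear part
    choose φ g hg using fun (c : ↥C) => (show ∃ φ g, ∃ x, (c : G) = D.t x * D.ι (tau φ * sigma n g) from by
      obtain ⟨x, f, e⟩ := D.gen c (Subgroup.mem_centralizer_singleton_iff.1 c.2)
      obtain ⟨φ, g, rfl⟩ := decompose f (D.commute_z.1 (by rw [← e]; exact Subgroup.mem_centralizer_singleton_iff.1 c.2))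
      exact ⟨φ, g, x, e⟩)
    have huniq : ∀ (c : ↥C) (ψ : V n →ₗ[F₂] F₂) (k : V n ≃ₗ[F₂] V n) (x : P n),
        (c : G) = D.t x * D.ι (tau ψ * sigma n k) → g c = k := by
      intro c ψ k x e
      obtain ⟨x', e'⟩ := hg c
      have h := (D.unique (e'.symm.trans e)).2
      refine LinearEquiv.ext fun v => ?_
      have := congrArg Prod.snd (LinearEquiv.congr_fun h (0, v))
      simpa [sigma] using this
    let π : ↥C →* (V n ≃ₗ[F₂] V n) := MonoidHom.mk' g fun a b => by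
      obtain ⟨x, ea⟩ := hg a
      obtain ⟨y, eb⟩ := hg b
      refine huniq (a * b) (φ a + (φ b).comp (g a).symm.toLinearMap) _ (x + (tau (φ a) * sigma n (g a)) y) ?_
      rw [Subgroup.coe_mul, ea, eb, D.mul_eq, ← tau_add, ← sigma_tau, map_mul (sigma n)]
      congr 2
      group
    haveI : (Cfsg.pCore 2 ↥C).Normal := pCore_normal 2 _
    have hsurj : Function.Surjective π := fun k =>
      ⟨⟨D.ι (sigma n k), D.K_le ⟨k, rfl⟩⟩, huniq _ 0 k 0 (by rw [tau_zero, one_mul, t_zero, one_mul])⟩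
    have := normal_two_group_trivial _ (Subgroup.Normal.map inferInstance π hsurj) ((Components.pCore_isPGroup 2).map π)
    have hc1 : g c = 1 := by
      have h : π c ∈ (Cfsg.pCore 2 ↥C).map π := Subgroup.mem_map_of_mem π hc
      rw [this] at h
      exact h
    obtain ⟨x, e⟩ := hg c
    rw [hc1, map_one, mul_one] at e
    exact ⟨x, φ c, e⟩
  · intro q hq
    refine ⟨⟨q, D.Q_le hq⟩, ?_, rfl⟩
    have hn : (D.Q.subgroupOf C).Normal := ⟨fun a ha c => D.Q_normal c.2 ha⟩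
    have hp : IsPGroup 2 ↥(D.Q.subgroupOf C) :=
      (IsPGroup.of_card D.card_Q).of_equiv (Subgroup.subgroupOfEquivOfLe D.Q_le).symm
    exact Components.le_pCore (N := D.Q.subgroupOf C) hp (show (⟨q, _⟩ : ↥C) ∈ D.Q.subgroupOf C from hq)

theorem centralizer_Q {c : G} (hc : ∀ q ∈ D.Q, c * q = q * c) : c ∈ D.Q ∧ (c = 1 ∨ c = D.z) := by
  obtain ⟨x, f, rfl⟩ := D.gen c (hc _ D.z_mem)
  have hf : f = 1 := LinearEquiv.ext fun v => by
    have h1 := hc _ (D.t_mem_Q v)
    rw [mul_assoc, D.swap, ← mul_assoc, ← mul_assoc, ← t_add, ← t_add, add_comm v x] at h1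
    exact add_left_cancel (D.t_inj (mul_right_cancel h1))
  subst hf
  have hm : D.t x * D.ι 1 ∈ D.Q := D.mem_Q.2 ⟨0, tau_zero.symm⟩
  exact ⟨hm, D.Q_center hm hc⟩

theorem elementary : ∃ E : Subgroup G, E ≤ D.Q ∧ Cfsg.IsElementaryAbelian 2 E ∧ Nat.card ↥E = 2 ^ (n + 1) := by
  refine ⟨D.T.range, ?_, ⟨⟨⟨?_⟩⟩, ?_⟩, ?_⟩
  · rintro _ ⟨x, rfl⟩; exact D.t_mem_Q x.toAdd
  · rintro ⟨_, x, rfl⟩ ⟨_, y, rfl⟩
    apply Subtype.ext
    show D.T x * D.T y = D.T y * D.T x
    rw [← map_mul, ← map_mul, mul_comm]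
  · rintro _ ⟨x, rfl⟩
    rw [← map_pow, show x ^ 2 = 1 from by rw [pow_two]; exact Multiplicative.toAdd.injective (add_self x.toAdd), map_one]
  · rw [← Nat.card_congr (MonoidHom.ofInjective D.T_inj).toEquiv]
    show Nat.card (P n) = _
    rw [Nat.card_prod, Nat.card_fun, Nat.card_fin, Nat.card_eq_fintype_card, ZMod.card, pow_succ']

theorem hyps (hn : 1 ≤ n) [Finite G] : Cfsg.IsExtraspecial 2 ↥D.Q ∧
    Subgroup.centralizer (D.Q : Set G) = (Subgroup.center ↥D.Q).map D.Q.subtype ∧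
    Subgroup.centralizer (((Subgroup.center ↥D.Q).map D.Q.subtype : Subgroup G) : Set G) ≤ Subgroup.normalizer (D.Q : Set G) ∧
    (∀ a ∈ (Subgroup.center ↥D.Q).map D.Q.subtype, a = 1 ∨ a = D.z) ∧
    D.z ∈ (Subgroup.center ↥D.Q).map D.Q.subtype := by
  have hE := D.extraspecial hn
  have hcentre : ∀ a ∈ (Subgroup.center ↥D.Q).map D.Q.subtype, a = 1 ∨ a = D.z := by
    rintro _ ⟨a, ha, rfl⟩
    exact D.Q_center a.2 fun b hb => (congrArg Subtype.val (Subgroup.mem_center_iff.1 ha ⟨b, hb⟩)).symm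
  have hzc : D.z ∈ (Subgroup.center ↥D.Q).map D.Q.subtype := ⟨⟨D.z, D.z_mem⟩, Subgroup.mem_center_iff.2 fun b =>
    Subtype.ext (Subgroup.mem_centralizer_singleton_iff.1 (D.Q_le b.2)), rfl⟩
  have hC : Subgroup.centralizer (D.Q : Set G) = (Subgroup.center ↥D.Q).map D.Q.subtype := by
    apply le_antisymm
    · intro c hc
      obtain ⟨-, h⟩ := D.centralizer_Q fun q hq => (Subgroup.mem_centralizer_iff.1 hc q hq).symm
      rcases h with rfl | rfl
      exacts [one_mem _, hzc]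
    · rintro _ ⟨a, ha, rfl⟩
      rw [Subgroup.mem_centralizer_iff]
      exact fun b hb => congrArg Subtype.val (Subgroup.mem_center_iff.1 ha ⟨b, hb⟩)
  have hN : Subgroup.centralizer (((Subgroup.center ↥D.Q).map D.Q.subtype : Subgroup G) : Set G) ≤
      Subgroup.normalizer (D.Q : Set G) := by
    intro c hc
    have hc' : c ∈ Subgroup.centralizer ({D.z} : Set G) :=
      Subgroup.mem_centralizer_singleton_iff.2 (Subgroup.mem_centralizer_iff.1 hc _ hzc).symm
    rw [Subgroup.mem_normalizer_iff]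
    refine fun q => ⟨D.Q_normal hc', fun h => ?_⟩
    have := D.Q_normal (inv_mem hc') h
    simpa [mul_assoc] using this
  exact ⟨hE, hC, hN, hcentre, hzc⟩

theorem large (hn : 1 ≤ n) [Finite G] (hTn : D.T.range.Normal) : Cfsg.IsLargeExtraspecial D.Q := by
  obtain ⟨hE, hC, hN, hcentre, -⟩ := D.hyps hn
  refine ⟨hE, hC, hN, fun K hK hQK => ?_⟩
  rw [Subgroup.eq_bot_iff_forall]
  intro k hk
  have hTp : IsPGroup 2 ↥D.T.range := by
    rintro ⟨_, x, rfl⟩
    exact ⟨1, Subtype.ext (by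
      show D.T x ^ 2 ^ 1 = 1
      rw [pow_one, ← map_pow, show x ^ 2 = 1 from by rw [pow_two]; exact Multiplicative.toAdd.injective (add_self x.toAdd), map_one])⟩
  refine eq_one_of_commute hE hC hN hK hQK hk hcentre
    (commute_of_mem_two_group hK hTp (hQK D.z_mem) hk ⟨_, rfl⟩ (hTn.conj_mem _ (inv_mem ⟨_, rfl⟩) k))

end Data

/-- Coordinates from the abstract hypotheses. -/
theorem exists_data [Finite G] (n : ℕ) (U M : Subgroup G) [U.Normal] (hU : Cfsg.IsElementaryAbelian 2 U)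
    (hUcard : Nat.card ↥U = 2 ^ (n + 1)) (hUM : U ⊓ M = ⊥) (hUM' : U ⊔ M = ⊤)
    (hfaith : ∀ m ∈ M, (∀ u ∈ U, m * u * m⁻¹ = u) → m = 1)
    (hfull : ∀ φ : ↥U ≃* ↥U, ∃ m ∈ M, ∀ u : ↥U, ((φ u : ↥U) : G) = m * u * m⁻¹)
    {z : G} (hz : z ∈ U) (hz1 : z ≠ 1) : ∃ D : Data G n, D.z = z ∧ D.T.range = U := by
  obtain ⟨e, he⟩ := exists_coord hU hUcard hz hz1
  let act (f : P n ≃ₗ[F₂] P n) : ↥U ≃* ↥U := e.trans ((AddEquiv.toMultiplicative f.toAddEquiv).trans e.symm)
  choose m hm hact using fun f => hfull (act f)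
  have huniq : ∀ a b : G, a ∈ M → b ∈ M → (∀ u : ↥U, a * u * a⁻¹ = b * u * b⁻¹) → a = b := by
    intro a b ha hb h
    refine (mul_right_injective b⁻¹) ?_
    show b⁻¹ * a = b⁻¹ * b
    rw [inv_mul_cancel]
    refine hfaith _ (mul_mem (inv_mem hb) ha) fun u hu => ?_
    rw [show b⁻¹ * a * u * (b⁻¹ * a)⁻¹ = b⁻¹ * (a * u * a⁻¹) * b by group, h ⟨u, hu⟩]
    group
  let ι : (P n ≃ₗ[F₂] P n) →* G := MonoidHom.mk' m fun f g => by
    refine huniq _ _ (hm _) (mul_mem (hm f) (hm g)) fun u => ?_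
    rw [← hact, show m f * m g * (u : G) * (m f * m g)⁻¹ = m f * (m g * u * (m g)⁻¹) * (m f)⁻¹ by group, ← hact, ← hact]
    congr 1
    show e.symm (Multiplicative.ofAdd ((f * g) (e u).toAdd)) = e.symm (Multiplicative.ofAdd (f (e (e.symm (Multiplicative.ofAdd (g (e u).toAdd)))).toAdd))
    rw [e.apply_symm_apply]
    rfl
  let T : Multiplicative (P n) →* G := U.subtype.comp e.symm.toMonoidHom
  refine ⟨⟨T, ι, U.subtype_injective.comp e.symm.injective, ?_, ?_, ?_, ?_⟩, ?_⟩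
  · refine (injective_iff_map_eq_one ι).2 fun f hf => LinearEquiv.ext fun x => ?_
    have h := hact f (e.symm (Multiplicative.ofAdd x))
    rw [show m f = 1 from hf, one_mul, inv_one, mul_one] at h
    have h2 := congrArg (fun u => (e u).toAdd) (U.subtype_injective h)
    simpa [act] using h2
  · intro f x
    have h := hact f (e.symm (Multiplicative.ofAdd x))
    refine h.symm.trans ?_
    simp [act, T]
  · intro g _
    obtain ⟨u, hu, a, ha, rfl⟩ := Subgroup.mem_sup_of_normal_left.1 (hUM' ▸ Subgroup.mem_top g : g ∈ U ⊔ M)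
    let ψ : ↥U ≃* ↥U := MulAut.conjNormal a
    let f0 : P n ≃+ P n := AddEquiv.toMultiplicative.symm ((e.symm.trans ψ).trans e)
    let f : P n ≃ₗ[F₂] P n := f0.toLinearEquiv fun c x => ZMod.map_smul f0 c x
    refine ⟨(e ⟨u, hu⟩).toAdd, f, ?_⟩
    have h1 : m f = a := huniq _ _ (hm f) ha fun v => by
      rw [← hact]
      show ((e.symm (Multiplicative.ofAdd (f (e v).toAdd)) : ↥U) : G) = a * v * a⁻¹
      simp [f, f0, ψ]
    show u * a = ((e.symm (Multiplicative.ofAdd (e ⟨u, hu⟩).toAdd) : ↥U) : G) * m f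
    rw [h1]; simp
  · intro x f h
    have h1 : T (Multiplicative.ofAdd x) ∈ U ⊓ M := ⟨(e.symm _).2, h ▸ hm f⟩
    rw [hUM, Subgroup.mem_bot] at h1
    have h2 := e.symm.injective ((U.subtype_injective (h1.trans (map_one U.subtype).symm)).trans (map_one e.symm).symm)
    exact h2
  · refine ⟨?_, ?_⟩
    · show ((e.symm (Multiplicative.ofAdd ((1, 0) : P n)) : ↥U) : G) = z
      rw [← he, e.symm_apply_apply]
    · ext u
      refine ⟨?_, fun hu => ⟨e ⟨u, hu⟩, by simp [T]⟩⟩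
      rintro ⟨x, rfl⟩
      exact (e.symm x).2

end Cfsg.Agent.Lib.LargeExtra.Affine
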