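import Cfsg.Agent.Lib.LargeExtra.Basic
import Cfsg.Agent.Lib.PGroupFrattini
import Cfsg.Agent.Lib.Components.Bender
import Cfsg.Agent.Lib.Components.Cores

/-! # An extraspecial generalized Fitting subgroup of an involution centralizer -/

set_option autoImplicit false

namespace Cfsg.Agent.Lib.LargeExtra
open Cfsg

theorem isExtraspecial_equiv {A B : Type*} [Group A] [Group B] [Finite A] [Finite B] (e : A ≃* B)
    (h : IsExtraspecial 2 A) : IsExtraspecial 2 B := by
  obtain ⟨⟨hp, hΦ, hcm⟩, hcard⟩ := h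
  haveI : Fact (Nat.Prime 2) := ⟨Nat.prime_two⟩
  have hp' : IsPGroup 2 B := hp.of_equiv e
  have hcen : (Subgroup.center A).map e.toMonoidHom = Subgroup.center B := by
    ext b
    constructor
    · rintro ⟨a, ha, rfl⟩
      rw [Subgroup.mem_center_iff]
      intro g
      obtain ⟨a', rfl⟩ := e.surjective g
      show e a' * e a = e a * e a'
      rw [← map_mul, ← map_mul, Subgroup.mem_center_iff.1 ha a']
    · intro hb
      refine ⟨e.symm b, Subgroup.mem_center_iff.2 fun a => e.injective ?_, by simp⟩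
      simpa using Subgroup.mem_center_iff.1 hb (e a)
  have hcm' : commutator B = Subgroup.center B := by
    rw [← hcen, ← hcm, commutator_def, commutator_def, Subgroup.map_commutator,
      Subgroup.map_top_of_surjective _ e.surjective]
  refine ⟨⟨hp', le_antisymm (PGroupFrattini.frattini_le Nat.prime_two _ hcm'.le fun b => ?_) ?_, hcm'⟩, ?_⟩
  · rw [← hcen]
    refine ⟨(e.symm b) ^ 2, hΦ ▸ PGroupFrattini.pow_mem_frattini hp (e.symm b), by simp⟩
  · rw [← hcm']; exact PGroupFrattini.commutator_le_frattini hp'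
  · rw [← hcen, ← Nat.card_congr (Subgroup.equivMapOfInjective (Subgroup.center A) e.toMonoidHom e.injective).toEquiv]
    exact hcard

variable {G : Type*} [Group G] [Finite G]

/-- The consequences of an extraspecial generalized Fitting subgroup in the centralizer of `z`. -/
theorem of_fstar {z : G} (hz : orderOf z = 2) {Q : Subgroup G}
    (hF : (Cfsg.generalizedFittingSubgroup ↥(Subgroup.centralizer ({z} : Set G))).map (Subgroup.centralizer ({z} : Set G)).subtype = Q)
    (hQ : IsExtraspecial 2 ↥Q) :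
    Subgroup.centralizer (Q : Set G) = (Subgroup.center ↥Q).map Q.subtype ∧
    Subgroup.centralizer (((Subgroup.center ↥Q).map Q.subtype : Subgroup G) : Set G) ≤ Subgroup.normalizer (Q : Set G) ∧
    z ∈ Q ∧ (∀ x, x ∈ (Subgroup.center ↥Q).map Q.subtype ↔ x = 1 ∨ x = z) ∧
    (∀ c, c * z = z * c → ∀ q ∈ Q, c * q * c⁻¹ ∈ Q) := by
  set C := Subgroup.centralizer ({z} : Set G)
  have hQC : Q ≤ C := hF ▸ Subgroup.map_subtype_le _
  have hC : ∀ c ∈ C, (∀ q ∈ Q, c * q = q * c) → c ∈ Q := by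
    intro c hc h
    rw [← hF]
    refine ⟨⟨c, hc⟩, Components.centralizer_gfs_le (Subgroup.mem_centralizer_iff.2 fun a ha => Subtype.ext ?_), rfl⟩
    exact (h a (hF ▸ ⟨a, ha, rfl⟩)).symm
  have hzC : z ∈ C := Subgroup.mem_centralizer_singleton_iff.2 rfl
  have hzQ : z ∈ Q := hC z hzC fun q hq => (Subgroup.mem_centralizer_singleton_iff.1 (hQC hq)).symm
  have hz1 : z ≠ 1 := fun e => by rw [e, orderOf_one] at hz; omega
  have hcz : (⟨z, hzQ⟩ : ↥Q) ∈ Subgroup.center ↥Q :=
    Subgroup.mem_center_iff.2 fun q => Subtype.ext (Subgroup.mem_centralizer_singleton_iff.1 (hQC q.2))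
  have hZ : ∀ x, x ∈ (Subgroup.center ↥Q).map Q.subtype ↔ x = 1 ∨ x = z := by
    intro x
    constructor
    · rintro ⟨a, ha, rfl⟩
      obtain ⟨u, hu, huu⟩ := (Nat.card_eq_two_iff' (1 : Subgroup.center ↥Q)).1 hQ.2
      have hzu := huu ⟨_, hcz⟩ fun e => hz1 (congrArg (fun t : Subgroup.center ↥Q => ((t : ↥Q) : G)) e)
      by_cases h : (⟨a, ha⟩ : Subgroup.center ↥Q) = 1
      · exact Or.inl (congrArg (fun t : Subgroup.center ↥Q => ((t : ↥Q) : G)) h)
      · exact Or.inr (congrArg (fun t : Subgroup.center ↥Q => ((t : ↥Q) : G)) ((huu _ h).trans hzu.symm))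
    · rintro (rfl | rfl)
      exacts [one_mem _, ⟨_, hcz, rfl⟩]
  have hn : ∀ c, c * z = z * c → ∀ q ∈ Q, c * q * c⁻¹ ∈ Q := by
    intro c hc q hq
    rw [← hF] at hq ⊢
    obtain ⟨a, ha, rfl⟩ := hq
    exact ⟨_, (inferInstance : (Cfsg.generalizedFittingSubgroup ↥C).Normal).conj_mem a ha
      ⟨c, Subgroup.mem_centralizer_singleton_iff.2 hc⟩, rfl⟩
  refine ⟨le_antisymm (fun c hc => ?_) ?_, fun c hc => ?_, hzQ, hZ, hn⟩
  · have h := fun q hq => (Subgroup.mem_centralizer_iff.1 hc q hq).symm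
    exact ⟨⟨c, hC c (Subgroup.mem_centralizer_singleton_iff.2 (h z hzQ)) h⟩,
      Subgroup.mem_center_iff.2 fun q => Subtype.ext (h q q.2).symm, rfl⟩
  · rintro _ ⟨a, ha, rfl⟩
    exact Subgroup.mem_centralizer_iff.2 fun q hq => congrArg Subtype.val (Subgroup.mem_center_iff.1 ha ⟨q, hq⟩)
  · have hcz' : c * z = z * c := (Subgroup.mem_centralizer_iff.1 hc z ((hZ z).2 (Or.inr rfl))).symm
    rw [Subgroup.mem_normalizer_iff]
    refine fun q => ⟨hn c hcz' q, fun h => ?_⟩
    have := hn c⁻¹ (Commute.inv_left (show Commute c z from hcz')).eq _ h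
    simpa [mul_assoc] using this

/-- With a non weakly closed centre and width at least two the subgroup is large. -/
theorem good_conj_centre {z : G} {Q : Subgroup G} (hZ : ∀ x, x ∈ (Subgroup.center ↥Q).map Q.subtype ↔ x = 1 ∨ x = z)
    (hz1 : z ≠ 1) {g : G} (hgQ : g * z * g⁻¹ ∈ Q) (hgz : g * z * g⁻¹ ≠ z) :
    g ∉ Subgroup.normalizer ((((Subgroup.center ↥Q).map Q.subtype) : Subgroup G) : Set G) ∧
    ((Subgroup.center ↥Q).map Q.subtype).map (MulAut.conj g).toMonoidHom ≤ Q := by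
  refine ⟨fun h => ?_, ?_⟩
  · rcases (hZ _).1 ((Subgroup.mem_normalizer_iff.1 h z).1 ((hZ z).2 (Or.inr rfl))) with e | e
    exacts [hz1 (conj_eq_one_iff.1 e), hgz e]
  · rintro _ ⟨a, ha, rfl⟩
    rcases (hZ a).1 ha with rfl | rfl
    · simp
    · exact hgQ

end Cfsg.Agent.Lib.LargeExtra
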